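-- Team project APQ = S4150 (helper69), package [M6B] (helper54): a `2`-transitive group of
-- degree `6` and order at most `60` is `A_5`.
import Mathlib
import Cfsg.Agent.Lib.Helper69.APQ.Defs
import Cfsg.Agent.S0700
import Cfsg.Agent.S0493
import Cfsg.Agent.S0494

set_option autoImplicit false

namespace Cfsg.Agent.Lib.Helper54.APQ

open Cfsg.Agent.Lib.Helper69.APQ Equiv MulAction

universe u

/-- `6` is not a prime power. -/
theorem six_ne_prime_pow54 {p k : ℕ} (hp : p.Prime) (h : 6 = p ^ k) : False := by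
  have h2 : 2 ∣ p ^ k := ⟨3, by omega⟩
  have h3 : 3 ∣ p ^ k := ⟨2, by omega⟩
  have h2' := (Nat.prime_dvd_prime_iff_eq Nat.prime_two hp).1 (Nat.prime_two.dvd_of_dvd_pow h2)
  have h3' := (Nat.prime_dvd_prime_iff_eq Nat.prime_three hp).1
    (Nat.prime_three.dvd_of_dvd_pow h3)
  omega

/-- [M6B]. -/
theorem pkgM6B : PkgM6B.{u} := by
  intro β _ _ H h6 h2 h60
  have hfaith : FaithfulSMul H β := by
    refine ⟨fun {g1 g2} h => ?_⟩
    apply Subtype.ext
    ext a
    exact h a
  have hprim : IsPreprimitive H β := isPreprimitive_of_is_two_pretransitive h2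
  have htrans : IsPretransitive H β := hprim.toIsPretransitive
  -- a minimal normal subgroup
  have hSne : ({M : Subgroup H | M.Normal ∧ M ≠ ⊥} : Set (Subgroup H)).Nonempty := by
    refine ⟨⊤, inferInstance, ?_⟩
    intro htop
    have hnt : Nontrivial β := by
      rw [← Fintype.one_lt_card_iff_nontrivial, h6]; norm_num
    obtain ⟨a, b, hab⟩ := exists_pair_ne β
    obtain ⟨g, hg⟩ := exists_smul_eq H a b
    have hg1 : g = 1 := by
      have : g ∈ (⊤ : Subgroup H) := Subgroup.mem_top g
      rw [htop] at this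
      exact Subgroup.mem_bot.1 this
    rw [hg1, one_smul] at hg
    exact hab hg
  obtain ⟨N, ⟨hNn, hNbot⟩, hNmin⟩ :=
    Set.exists_min_image {M : Subgroup H | M.Normal ∧ M ≠ ⊥} (fun M => Nat.card M)
      (Set.toFinite _) hSne
  have hmin : ∀ M : Subgroup H, M.Normal → M ≤ N → M = ⊥ ∨ M = N := by
    intro M hM hMN
    by_cases hMb : M = ⊥
    · exact Or.inl hMb
    · exact Or.inr (Subgroup.eq_of_le_of_card_ge hMN (hNmin M ⟨hM, hMb⟩))
  -- `N` is transitive
  have hNtrans : ∀ x y : β, ∃ m ∈ N, m • x = y := Cfsg.Agent.S0700.trans_of_prim hprim N hNbot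
  have hNpre : IsPretransitive N β :=
    ⟨fun x y => by obtain ⟨m, hm, h⟩ := hNtrans x y; exact ⟨⟨m, hm⟩, h⟩⟩
  have horb : ∀ a : β, Nat.card N = 6 * Nat.card (stabilizer N a) := by
    intro a
    have h1 := Nat.card_congr (orbitProdStabilizerEquivGroup N a)
    rw [Nat.card_prod, orbit_eq_univ N a, Nat.card_congr (Equiv.Set.univ β),
      Nat.card_eq_fintype_card, h6] at h1
    exact h1.symm
  obtain ⟨a⟩ : Nonempty β := by
    rw [← Fintype.card_pos_iff, h6]; norm_num
  rcases Cfsg.Agent.S0700.result H h2 N hNbot hmin with ⟨-, ⟨p, hp, hexp⟩, hstab⟩ | ⟨hsimple, -⟩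
  · -- regular elementary abelian: impossible
    exfalso
    have hN6 : Nat.card N = 6 := by
      rw [horb a, hstab a, Subgroup.card_bot]
    have : Fact p.Prime := ⟨hp⟩
    have hpg : IsPGroup p N := by
      intro g
      refine ⟨1, ?_⟩
      rw [pow_one]
      apply Subtype.ext
      simpa using hexp g g.2
    obtain ⟨k, hk⟩ := IsPGroup.iff_card.1 hpg
    rw [hN6] at hk
    exact six_ne_prime_pow54 hp hk
  · -- simple: order 60, so `N = ⊤`
    have hncyc : ¬ IsCyclic N := by
      intro hcyc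
      let _ := IsCyclic.commGroup (α := N)
      have hpr : (Nat.card N).Prime := IsSimpleGroup.prime_card (α := N)
      have h1 := horb a
      have h2 : (2 : ℕ) ∣ Nat.card N := ⟨3 * Nat.card (stabilizer N a), by omega⟩
      have h3 : (3 : ℕ) ∣ Nat.card N := ⟨2 * Nat.card (stabilizer N a), by omega⟩
      have h2' := (Nat.prime_dvd_prime_iff_eq Nat.prime_two hpr).1 h2
      have h3' := (Nat.prime_dvd_prime_iff_eq Nat.prime_three hpr).1 h3
      omega
    have hle : Nat.card N ≤ Nat.card H := Subgroup.card_le_card_group N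
    have hN60 : Nat.card N = 60 := Cfsg.Agent.S0493.result hncyc (by omega)
    have hNtop : N = ⊤ := Subgroup.eq_top_of_le_card N (by omega)
    obtain ⟨f⟩ := Cfsg.Agent.S0494.result hN60
    exact ⟨((Subgroup.topEquiv.symm).trans (MulEquiv.subgroupCongr hNtop.symm)).trans f⟩

example : PkgM6B.{0} := pkgM6B
example : PkgM6B.{3} := pkgM6B

end Cfsg.Agent.Lib.Helper54.APQ
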